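import Cfsg.Agent.TwoF.XE.Lo
import Cfsg.Agent.Mrg.Omega.TwoF.OrthTie
import Cfsg.Agent.LieClassical.OrthCenter
import Cfsg.Agent.ClassicalGeometry.OmegaIndex

/-!
# TwoF / XS, `Ω₇(3)` in characteristic 2 (helper76): the automorphisms are induced by isometries; rank at most six
-/

set_option autoImplicit false
set_option linter.unusedSectionVars false

namespace Cfsg.Agent.TwoF.XS.O73x

open Module Subgroup QuadraticMap Matrix Cfsg.Agent.TwoF.XE
open Cfsg.Agent.ClassicalGeometry.Reflection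
open Cfsg.Agent.ClassicalGeometry.GenReflections (act act_apply act_mul act_one act_isometry act_polar act_ext
  act_reflIso act_inv_eq)

variable {ι : Type} [Fintype ι] [DecidableEq ι] {F : Type} [Field F] [Finite F] {Q : QuadraticForm F (ι → F)}

/-- the standing hypotheses -/
structure St (Q : QuadraticForm F (ι → F)) : Prop where
  hF : Nat.card F = 3
  nd : (polarBilin Q).Nondegenerate
  h7 : Fintype.card ι = 7
  zc : Zc 2 (Omega F ⇑Q) 6
  aut : Nat.card (MulAut (Omega F ⇑Q)) = 2 * Nat.card (Omega F ⇑Q)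

/-- conjugation -/
def cj (Q : QuadraticForm F (ι → F)) : isometryGroup F ⇑Q →* MulAut (Omega F ⇑Q) := MulAut.conjNormal

theorem coe_cj (M : isometryGroup F ⇑Q) (g : Omega F ⇑Q) : (cj Q M g : isometryGroup F ⇑Q) = M * g * M⁻¹ := rfl

/-- the determinant -/
def dt (Q : QuadraticForm F (ι → F)) : isometryGroup F ⇑Q →* F :=
  Matrix.detMonoidHom.comp ((Units.coeHom _).comp (isometryGroup F ⇑Q).subtype)

theorem dt_refl {v : ι → F} (hv : Q v ≠ 0) : dt Q (reflIso Q v hv) = -1 := det_reflIso Q v hv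

theorem cj_eq_one {M : isometryGroup F ⇑Q} {c : F} (h : ∀ x, act Q M x = c • x) : cj Q M = 1 :=
  MulEquiv.ext fun g => Subtype.ext ((coe_cj M g).trans (mul_inv_eq_of_eq_mul (act_ext Q _ _ fun x => by
    rw [act_mul, h, MulAut.one_apply, act_mul, h, map_smul])))

theorem cj_eq {M N : isometryGroup F ⇑Q} {c : F} (h : ∀ x, act Q M x = c • act Q N x) : cj Q M = cj Q N := by
  rw [← inv_mul_eq_one, ← map_inv, ← map_mul]
  have h1 : cj Q (N⁻¹ * M) = 1 := cj_eq_one (c := c) fun x => by
    rw [act_mul, h, map_smul, act_inv_eq Q N x _ rfl]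
  rw [← inv_eq_one, ← map_inv, _root_.mul_inv_rev, inv_inv, h1]

theorem sq_eq_one (hF : Nat.card F = 3) {a : F} (ha : a ≠ 0) : a * a = 1 := by
  have := Fintype.ofFinite F
  have h := FiniteField.pow_card_sub_one_eq_one a ha
  rwa [← Nat.card_eq_fintype_card, hF, pow_two] at h

theorem three_eq (hF : Nat.card F = 3) : (3 : F) = 0 := by
  have := Fintype.ofFinite F
  have h := FiniteField.cast_card_eq_zero F
  rwa [← Nat.card_eq_fintype_card, hF, Nat.cast_ofNat] at h

theorem two_ne (hF : Nat.card F = 3) : (2 : F) ≠ 0 := fun h =>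
  one_ne_zero (α := F) (by linear_combination three_eq hF - h)

theorem sing (hF : Nat.card F = 3) (h7 : Fintype.card ι = 7) (Q : QuadraticForm F (ι → F)) :
    ∃ u : ι → F, u ≠ 0 ∧ Q u = 0 :=
  ClassicalGeometry.SiegelGen.exists_singular (two_ne hF) Q (by rw [finrank_fintype_fun_eq_card, h7]; norm_num)

theorem dt_neg (h7 : Fintype.card ι = 7) {M : isometryGroup F ⇑Q}
    (h : ((M : GL ι F) : Matrix ι ι F) = -1) : dt Q M = -1 := by
  show ((M : GL ι F) : Matrix ι ι F).det = -1
  rw [h, det_neg, det_one, h7]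
  norm_num

theorem center_eq_bot (hF : Nat.card F = 3) (nd : (polarBilin Q).Nondegenerate) (h7 : Fintype.card ι = 7) :
    center (Omega F ⇑Q) = ⊥ :=
  card_eq_one.1 (LieClassical.OrthCenter.card_center_omega_of_not_mem nd (by omega) (sing hF h7 Q) fun g hg e =>
    two_ne hF (by linear_combination (LieClassical.OrthCenter.det_of_mem_omega g hg).symm.trans (dt_neg h7 e)))

namespace St

variable (h : St Q)
include h

theorem h2 : (2 : F) ≠ 0 := two_ne h.hF

theorem h3 : (3 : F) = 0 := three_eq h.hF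

theorem cen : center (Omega F ⇑Q) = ⊥ := center_eq_bot h.hF h.nd h.h7

theorem of_cj {M : isometryGroup F ⇑Q} (e : cj Q M = 1) :
    ((M : GL ι F) : Matrix ι ι F) = 1 ∨ ((M : GL ι F) : Matrix ι ι F) = -1 :=
  LieClassical.OrthCenter.eq_one_or_neg_one_of_commute_omega h.nd (by rw [h.h7]; norm_num) (sing h.hF h.h7 Q) M
    fun g hg => mul_inv_eq_iff_eq_mul.1 ((coe_cj M ⟨g, hg⟩).symm.trans (by rw [e, MulAut.one_apply]))

theorem eq_one {M : isometryGroup F ⇑Q} (e : cj Q M = 1) (hd : dt Q M = 1) : M = 1 :=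
  (h.of_cj e).elim (fun e => Subtype.ext (Units.ext e)) fun e =>
    absurd (by linear_combination hd.symm.trans (dt_neg h.h7 e)) h.h2

theorem mul_self {M : isometryGroup F ⇑Q} (e : cj Q M * cj Q M = 1) : M * M = 1 :=
  h.eq_one (by rw [map_mul, e]) (by
    rw [map_mul]
    exact sq_eq_one h.hF ((Group.isUnit M).map (dt Q)).ne_zero)

theorem surj : Function.Surjective (cj Q) := by
  classical
  have h1 : Nat.card (cj Q).ker ≤ 2 := by
    have h1 := Nat.card_le_card_of_injective
      (fun M : (cj Q).ker => decide ((((M : isometryGroup F ⇑Q) : GL ι F) : Matrix ι ι F) = 1)) fun M N e => by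
        have e' := decide_eq_decide.1 e
        refine Subtype.ext (Subtype.ext (Units.ext ?_))
        by_cases hM : (((M : isometryGroup F ⇑Q) : GL ι F) : Matrix ι ι F) = 1
        · rw [hM, e'.1 hM]
        · rw [(h.of_cj M.2).resolve_left hM, (h.of_cj N.2).resolve_left (mt e'.2 hM)]
    rwa [Nat.card_eq_fintype_card (α := Bool), Fintype.card_bool] at h1
  have h2 := card_mul_index (cj Q).ker
  have h3 := card_mul_index (Omega F ⇑Q)
  rw [ClassicalGeometry.OmegaIndex.index_Omega h.h2 (by rw [h.h7]; norm_num) Q h.nd] at h3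
  rw [index_ker] at h2
  have h4 := Nat.mul_le_mul_right (Nat.card (cj Q).range) h1
  rw [← MonoidHom.range_eq_top]
  exact eq_top_of_le_card _ (by rw [h.aut]; omega)

theorem rank {E : Subgroup (MulAut (Omega F ⇑Q))} (hE : ∀ a ∈ E, a * a = 1) : Nat.card E ≤ 2 ^ 6 := by
  choose M hM using h.surj
  refine Omega.TwoF.RkLin.card_le_matrix h.h2 h.h7 (by norm_num) (fun a : E => (M a : GL ι F)) (fun a b => ?_)
    (fun a => Subtype.ext (hE a a.2)) ?_
  · have h1 : cj Q (M a * M b * (M (a * b : E))⁻¹) = 1 := by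
      rw [map_mul, map_mul, map_inv, hM, hM, hM, coe_mul, mul_inv_cancel]
    have h2 : ((M a : GL ι F) : Matrix ι ι F) * (M b : GL ι F) =
        ((M a * M b * (M (a * b : E))⁻¹ : isometryGroup F ⇑Q) : GL ι F) * (M (a * b : E) : GL ι F) := by
      rw [← Units.val_mul, ← Units.val_mul, ← coe_mul, ← coe_mul, inv_mul_cancel_right]
    rcases h.of_cj h1 with e | e
    · exact ⟨1, by rw [h2, e, one_mul, one_smul]⟩
    · exact ⟨-1, by rw [h2, e, neg_one_mul, neg_one_smul]⟩
  · rintro a ⟨c, hc⟩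
    refine Subtype.ext ((hM a).symm.trans (cj_eq_one (c := c) fun x => ?_))
    rw [act_apply, hc, smul_mulVec, one_mulVec]

/-- three reflections -/
theorem three_refl {u v w : ι → F} (hu : Q u ≠ 0) (hv : Q v ≠ 0) (hw : Q w ≠ 0) :
    cj Q (reflIso Q u hu) * cj Q (reflIso Q v hv) ≠ cj Q (reflIso Q w hw) := by
  intro e
  rw [← mul_inv_eq_one, ← map_inv, reflIso_inv, ← map_mul, ← map_mul] at e
  rcases h.of_cj e with e | e
  · have h1 : dt Q (reflIso Q u hu * reflIso Q v hv * reflIso Q w hw) = 1 := by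
      rw [show reflIso Q u hu * reflIso Q v hv * reflIso Q w hw = 1 from Subtype.ext (Units.ext e), map_one]
    rw [map_mul, map_mul, dt_refl, dt_refl, dt_refl] at h1
    exact h.h2 (by linear_combination -h1)
  · let L : (ι → F) →ₗ[F] (Fin 3 → F) := LinearMap.pi ![polarBilin Q u, polarBilin Q v, polarBilin Q w]
    obtain ⟨x, hx, x0⟩ := (Submodule.ne_bot_iff _).1 (LinearMap.ker_ne_bot_of_finrank_lt (f := L) (by
      rw [finrank_fintype_fun_eq_card, finrank_fintype_fun_eq_card, h.h7, Fintype.card_fin]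
      norm_num))
    have h1 := act_apply Q (reflIso Q u hu * reflIso Q v hv * reflIso Q w hw) x
    rw [e, act_mul, act_mul, Omega.TwoF.OrthEl.refl_fix hw (congrFun hx 2),
      Omega.TwoF.OrthEl.refl_fix hv (congrFun hx 1), Omega.TwoF.OrthEl.refl_fix hu (congrFun hx 0), neg_mulVec,
      one_mulVec, eq_neg_iff_add_eq_zero, ← two_smul F, smul_eq_zero] at h1
    exact h1.elim h.h2 x0

end St

end Cfsg.Agent.TwoF.XS.O73x
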