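import Cfsg.Agent.TwoF.XS.O73.Plane
import Cfsg.Agent.TwoF.XS.Defs
import Cfsg.Agent.H926.Split
import Cfsg.Agent.S0816
import Cfsg.Agent.S2095

/-!
# TwoF / XS, `Ω₇(3)` in characteristic 2 (helper76): involutions of the isometry group; no offenders; `o73`
-/

set_option autoImplicit false
set_option linter.unusedSectionVars false

namespace Cfsg.Agent.TwoF.XS.O73x

open Module Subgroup QuadraticMap Cfsg.Agent.TwoF.Gen Cfsg.Agent.TwoF.XE Cfsg.Agent.Omega.TwoF.OrthEl
open Cfsg.Agent.ClassicalGeometry.Reflection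
open Cfsg.Agent.ClassicalGeometry.GenReflections (act act_apply act_mul act_one act_isometry act_polar act_ext
  act_reflIso act_inv_eq)
open Cfsg.Agent.H926 (NdOn cut mem_cut ndOn_cut finrank_cut split)

variable {ι : Type} [Fintype ι] [DecidableEq ι] {F : Type} [Field F] [Finite F] {Q : QuadraticForm F (ι → F)}
  {U W : Submodule F (ι → F)}

/-- an orthogonal decomposition -/
structure Dec (Q : QuadraticForm F (ι → F)) (U W : Submodule F (ι → F)) : Prop where
  sum : ∀ v, ∃ u ∈ U, ∃ w ∈ W, v = u + w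
  orth : ∀ u ∈ U, ∀ w ∈ W, polar Q u w = 0

theorem Dec.symm (D : Dec Q U W) : Dec Q W U :=
  ⟨fun v => by
    obtain ⟨u, hu, w, hw, e⟩ := D.sum v
    exact ⟨w, hw, u, hu, e.trans (add_comm _ _)⟩, fun w hw u hu => (polar_comm _ _ _).trans (D.orth u hu w hw)⟩

theorem Dec.ndOn (D : Dec Q U W) (nd : (polarBilin Q).Nondegenerate) : NdOn Q U := fun u hu u0 => by
  by_contra hc
  refine u0 (nd.1 u fun v => ?_)
  obtain ⟨a, ha, w, hw, rfl⟩ := D.sum v
  rw [polarBilin_apply_apply, polar_add_right, D.orth u hu w hw, add_zero]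
  exact of_not_not fun e => hc ⟨a, ha, e⟩

theorem Dec.finrank_add (D : Dec Q U W) (nd : (polarBilin Q).Nondegenerate) :
    finrank F U + finrank F W = Fintype.card ι := by
  have h1 : U ⊓ W = ⊥ := eq_bot_iff.2 fun v hv => by
    by_contra v0
    obtain ⟨x, hx, e⟩ := D.ndOn nd v hv.1 v0
    exact e (D.symm.orth v hv.2 x hx)
  have h2 : U ⊔ W = ⊤ := eq_top_iff.2 fun v _ => by
    obtain ⟨u, hu, w, hw, rfl⟩ := D.sum v
    exact Submodule.add_mem_sup hu hw
  rw [← Submodule.finrank_sup_add_finrank_inf_eq, h1, h2, finrank_bot, finrank_top, finrank_fintype_fun_eq_card,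
    add_zero]

theorem exists_nonsing (hW : NdOn Q W) (h1 : 1 ≤ finrank F W) : ∃ w ∈ W, Q w ≠ 0 := by
  obtain ⟨u, hu, u0⟩ := (Submodule.ne_bot_iff W).1 (by
    rintro rfl
    rw [finrank_bot] at h1
    omega)
  obtain ⟨x, hx, e⟩ := hW u hu u0
  by_contra hc
  have h2 : ∀ w ∈ W, Q w = 0 := fun w hw => of_not_not fun e => hc ⟨w, hw, e⟩
  exact e (by rw [polar, h2 _ (add_mem hu hx), h2 u hu, h2 x hx, sub_zero, sub_zero])

theorem q_hyp {e f : ι → F} (H : LieClassical.OrthTrans.Hyp Q e f) (a : F) : Q (e + a • f) = a := by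
  have := Q_sub_smul H.left H.right H.pair (-a)
  rwa [neg_smul, sub_neg_eq_add, neg_neg] at this

theorem ne_zero_of_hyp {e f : ι → F} (H : LieClassical.OrthTrans.Hyp Q e f) : e ≠ 0 := fun h =>
  zero_ne_one (by rw [← H.pair, h, polar_zero_left])

/-- a plane adapted to the decomposition -/
theorem Dec.exists_pl (D : Dec Q U W) (h : St Q) (hU : 2 ≤ finrank F U) (hW : 3 ≤ finrank F W) :
    (∃ e ∈ U, ∃ w ∈ W, ∃ w' ∈ W, Pl Q e w w') ∨ ∃ e ∈ W, ∃ w ∈ U, ∃ w' ∈ U, Pl Q e w w' := by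
  have nW := D.symm.ndOn h.nd
  obtain ⟨e', he', f', hf', H⟩ := split nW hW
  by_cases hs : ∃ e ∈ U, e ≠ 0 ∧ Q e = 0
  · obtain ⟨e, he, e0, qe⟩ := hs
    obtain ⟨w, hw, qw⟩ := exists_nonsing (ndOn_cut nW H he' hf') (by
      have := finrank_cut H he' hf'
      omega)
    have hw' : e' + Q w • f' ∈ W := add_mem he' (W.smul_mem _ hf')
    refine Or.inl ⟨e, he, w, hw.1, _, hw', e0, qe, D.orth e he w hw.1, D.orth e he _ hw', ?_, qw, q_hyp H _⟩
    rw [polar_comm, polar_add_left, polar_smul_left, (mem_cut.1 hw).2.1, (mem_cut.1 hw).2.2, smul_zero, add_zero]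
  · have an : ∀ u ∈ U, u ≠ 0 → Q u ≠ 0 := fun u hu u0 e => hs ⟨u, hu, u0, e⟩
    obtain ⟨w, hw, qw⟩ := exists_nonsing (D.ndOn h.nd) (by omega)
    obtain ⟨w', hw', w0⟩ := (Submodule.ne_bot_iff _).1 (LinearMap.ker_ne_bot_of_finrank_lt
      (f := (polarBilin Q w).comp U.subtype) (by rw [finrank_self]; omega))
    have ww : polar Q w w' = 0 := hw'
    have q1 := an w' w'.2 fun e => w0 (Subtype.ext e)
    have q2 := an (w + w') (add_mem hw w'.2) fun e => mul_ne_zero h.h2 qw (by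
      have h1 := polar_add_right Q w w w'
      rwa [e, polar_zero_right, ww, add_zero, polar_self', eq_comm] at h1)
    rw [map_add', ww, add_zero] at q2
    have q3 : (Q w + Q w') * (Q w' - Q w) = 0 := by linear_combination sq_eq_one h.hF q1 - sq_eq_one h.hF qw
    exact Or.inr ⟨e', he', w, hw, w', w'.2, ne_zero_of_hyp H, H.left, D.symm.orth e' he' w hw,
      D.symm.orth e' he' w' w'.2, ww, qw, sub_eq_zero.1 ((mul_eq_zero.1 q3).resolve_left q2)⟩

/-- eigenspaces -/
def eig (M : isometryGroup F ⇑Q) (c : F) : Submodule F (ι → F) := LinearMap.eqLocus (act Q M) (c • LinearMap.id)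

theorem mem_eig {M : isometryGroup F ⇑Q} {c : F} {v : ι → F} : v ∈ eig M c ↔ act Q M v = c • v := Iff.rfl

namespace St

variable (h : St Q) {M : isometryGroup F ⇑Q} {c : F}
include h

theorem dec (hM : M * M = 1) (hc : c * c = 1) : Dec Q (eig M c) (eig M (-c)) where
  sum v := by
    have h1 : act Q M (act Q M v) = v := by rw [← act_mul, hM, act_one]
    refine ⟨-(v + c • act Q M v), mem_eig.2 ?_, -(v - c • act Q M v), mem_eig.2 ?_, ?_⟩
    · rw [map_neg, map_add, map_smul, h1, smul_neg, smul_add, smul_smul, hc, one_smul, add_comm]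
    · rw [map_neg, map_sub, map_smul, h1, neg_smul_neg, smul_sub, smul_smul, hc, one_smul, neg_sub]
    · have h2 : -(v + c • act Q M v) + -(v - c • act Q M v) = v - (3 : F) • v := by module
      rw [h2, h.h3, zero_smul, sub_zero]
  orth u hu w hw := by
    have h1 := act_polar Q M u w
    rw [mem_eig.1 hu, mem_eig.1 hw, polar_smul_left, polar_smul_right, smul_eq_mul, smul_eq_mul] at h1
    exact (mul_eq_zero.1 (by linear_combination -h1 - polar Q u w * hc : 2 * polar Q u w = 0)).resolve_left h.h2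

theorem cls_aux (hM : M * M = 1) (hc : c * c = 1) (hd : finrank F (eig M c) ≤ 3) :
    cj Q M = 1 ∨ (Le 2 (cj Q M) 10 ∧ ∃ u hu, cj Q M = cj Q (reflIso Q u hu)) ∨ Le 2 (cj Q M) 14 := by
  have D := h.dec hM hc
  have h7 := D.finrank_add h.nd
  rw [h.h7] at h7
  have hc' : -c * -c = 1 := by rw [neg_mul_neg, hc]
  rcases Nat.lt_or_ge (finrank F (eig M c)) 2 with h1 | h1
  · rcases Nat.eq_zero_or_pos (finrank F (eig M c)) with h0 | h0
    · refine Or.inl (cj_eq_one (c := -c) fun x => ?_)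
      obtain ⟨u, hu, w, hw, rfl⟩ := D.sum x
      rw [Submodule.finrank_eq_zero.1 h0, Submodule.mem_bot] at hu
      rw [hu, zero_add]
      exact hw
    · obtain ⟨u, hu, qu⟩ := exists_nonsing (D.ndOn h.nd) h0
      have nW := D.symm.ndOn h.nd
      obtain ⟨e, he, f, hf, H⟩ := split nW (by omega)
      have h5 := finrank_cut H he hf
      obtain ⟨e', he', f', hf', H'⟩ := split (ndOn_cut nW H he hf) (by omega)
      have hw : ∀ a : F, e' + a • f' ∈ cut Q (eig M (-c)) e f := fun a => add_mem he' (Submodule.smul_mem _ _ hf')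
      refine Or.inr (Or.inl ⟨h.le_one (e := e) (w := u) (w' := e' + Q u • f') ⟨ne_zero_of_hyp H, H.left,
        D.symm.orth e he u hu, (hw _).2.1, D.orth u hu _ (hw _).1, qu, q_hyp H' _⟩ (v := e' + (-Q u) • f')
        ((polar_comm _ _ _).trans (hw _).2.1) (D.symm.orth _ (hw _).1 u hu) (q_hyp H' _) hc' he
        (by rw [neg_neg]; exact hu), u, qu, cj_eq (c := -c) fun x => ?_⟩)
      obtain ⟨a, ha, w, hw, rfl⟩ := D.sum x
      obtain ⟨t, ht⟩ := (finrank_eq_one_iff_of_nonzero' (⟨u, hu⟩ : eig M c) fun e => qu (by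
        rw [show u = 0 from congrArg Subtype.val e, map_zero])).1 (le_antisymm (Nat.le_of_lt_succ h1) h0) ⟨a, ha⟩
      rw [map_add, map_add, mem_eig.1 ha, mem_eig.1 hw, refl_fix qu (D.orth u hu w hw),
        ← show t • u = a from congrArg Subtype.val ht, map_smul, refl_neg, smul_add, smul_neg t, neg_smul_neg]
  · refine Or.inr (Or.inr ?_)
    rcases D.exists_pl h h1 (by omega) with ⟨e, he, w, hw, w', hw', P⟩ | ⟨e, he, w, hw, w', hw', P⟩
    · exact h.le_pl P hc he hw hw'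
    · exact h.le_pl P hc' he (by rw [neg_neg]; exact hw) (by rw [neg_neg]; exact hw')

/-- **the involutions** -/
theorem cls {α : MulAut (Omega F ⇑Q)} (h1 : α ≠ 1) (h2 : α * α = 1) :
    (Le 2 α 10 ∧ ∃ u hu, α = cj Q (reflIso Q u hu)) ∨ Le 2 α 14 := by
  obtain ⟨M, rfl⟩ := h.surj α
  have hM := h.mul_self h2
  have h7 := (h.dec hM (mul_one 1)).finrank_add h.nd
  rw [h.h7] at h7
  rcases Nat.lt_or_ge 3 (finrank F (eig M 1)) with h3 | h3
  · exact (h.cls_aux hM (c := -1) (by rw [neg_mul_neg, mul_one]) (by omega)).resolve_left h1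
  · exact (h.cls_aux hM (mul_one 1) h3).resolve_left h1

theorem noOff : NoOff 2 (Omega F ⇑Q) := by
  refine noOff_of_lo fun E hE r r0 hr => ?_
  have h2 : ∀ a ∈ E, a * a = 1 := fun a ha => (pow_two a).symm.trans (hE.2 a ha)
  have h6 : r ≤ 6 := (Nat.pow_le_pow_iff_right one_lt_two).1 (hr ▸ h.rank h2)
  obtain ⟨a, ha, a1⟩ := exists_ne_one r0 hr
  rcases Nat.lt_or_ge r 2 with h1 | h1
  · exact ((h.cls a1 (h2 a ha)).elim (fun e => e.1) fun e => Lo.le e (by norm_num)).lo ha |>.le (by omega)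
  obtain ⟨b, hb, b1⟩ : ∃ b ∈ E, b ∉ zpowers a := by
    by_contra hc
    have h3 := card_le_of_le (show E ≤ zpowers a from fun b hb => of_not_not fun e => hc ⟨b, hb, e⟩)
    have h4 := Nat.pow_le_pow_right two_pos h1
    have : Fact (Nat.Prime 2) := ⟨Nat.prime_two⟩
    rw [Nat.card_zpowers, orderOf_eq_prime ((pow_two a).trans (h2 a ha)) a1] at h3
    omega
  suffices h3 : ∃ d ∈ E, Le 2 d 14 from h3.elim fun d hd => (hd.2.lo hd.1).le (by omega)
  rcases h.cls a1 (h2 a ha) with ⟨-, u, hu, e1⟩ | e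
  · rcases h.cls (fun e : b = 1 => b1 (e ▸ one_mem _)) (h2 b hb) with ⟨-, v, hv, e2⟩ | e
    · rcases h.cls (fun e : a * b = 1 => b1 (eq_inv_of_mul_eq_one_right e ▸ inv_mem (mem_zpowers a)))
        (h2 _ (mul_mem ha hb)) with ⟨-, w, hw, e3⟩ | e
      · exact absurd (by rw [← e1, ← e2, e3]) (h.three_refl hu hv hw)
      · exact ⟨_, mul_mem ha hb, e⟩
    · exact ⟨b, hb, e⟩
  · exact ⟨a, ha, e⟩

end St

end Cfsg.Agent.TwoF.XS.O73x

namespace Cfsg.Agent.TwoF.XS

open O73x Cfsg.Agent.LieClassical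

theorem O73x.row_congr {ι F : Type} [Fintype ι] [DecidableEq ι] [Field F] {Q Q' : (ι → F) → F} (e : Q = Q')
    (h : Row 2 (POmega F Q)) : Row 2 (POmega F Q') := by
  subst e
  exact h

/-- **`Ω₇(3)`, `p = 2`** -/
theorem o73 : O73 := by
  intro F _ _ hF
  refine row_congr (OrthForms.coe_oddForm 3 F) ?_
  have : Fact (Nat.Prime 3) := ⟨Nat.prime_three⟩
  have h1 := S2095.result hF
  have h2 := S0816.result (F := F) 3 1 le_rfl hF (by decide) 3 le_rfl
  rw [← OrthForms.coe_oddForm] at h1 h2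
  have hF' : Nat.card F = 3 := Nat.card_eq_fintype_card.trans hF
  have nd := Omega.TwoF.OrthEl.nondeg_polarBilin (OrthForms.nondeg_oddForm 3 F (two_ne hF'))
  have h7 : Fintype.card (Unit ⊕ (Fin 3 ⊕ Fin 3)) = 7 := by simp
  let e : POmega F (OrthForms.oddForm 3 F) ≃* Omega F (OrthForms.oddForm 3 F) :=
    (QuotientGroup.quotientMulEquivOfEq (center_eq_bot hF' nd h7)).trans QuotientGroup.quotientBot
  refine (NoOff.of_equiv (St.noOff ⟨hF', nd, h7, (XE.zc_of_cyclic h1).of_equiv e.symm, ?_⟩) e).row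
  rw [← Nat.card_congr (MulAut.congr e).toEquiv, ← Nat.card_congr e.toEquiv, h2]

end Cfsg.Agent.TwoF.XS
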