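import Cfsg.Agent.TwoF.XS.O73.Tri
import Cfsg.Agent.TwoF.XS.O73.Aut
import Cfsg.Agent.ClassicalGeometry.WittQuad

/-!
# TwoF / XS, `Ω₇(3)` in characteristic 2 (helper76): pairs of Eichler transformations `E(e, w)`, `E(e, w')`
-/

set_option autoImplicit false
set_option linter.unusedSectionVars false

namespace Cfsg.Agent.TwoF.XS.O73x

open Module Subgroup QuadraticMap Cfsg.Agent.TwoF.XE Cfsg.Agent.Omega.TwoF.OrthEl
open Cfsg.Agent.ClassicalGeometry.Reflection
open Cfsg.Agent.ClassicalGeometry.GenReflections (act act_apply act_mul act_one act_isometry act_polar act_ext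
  act_reflIso act_inv_eq)

section calc_

variable {p : ℕ} [Fact p.Prime] {S : Type} [Group S] {x y : S} {α : MulAut S} {n c : ℕ}

theorem li_of_pair {g : S} (h : Lo p (zpowers (MulAut.conj x) ⊔ zpowers (MulAut.conj y)) n) (e : g * x * g⁻¹ = y)
    (hc : 2 * (c - 1) < n) : Li p x c := by
  classical
  refine Lo.of_gen {1, g} (h.mono (sup_le (zpowers_le.2 ?_) (zpowers_le.2 ?_)))
    ((Nat.mul_le_mul_right _ Finset.card_le_two).trans_lt hc)
  · exact mem_iSup_of_mem 1 (mem_iSup_of_mem (by simp) ⟨_, mem_zpowers _, by simp⟩)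
  · exact mem_iSup_of_mem g (mem_iSup_of_mem (by simp) ⟨_, mem_zpowers _, by simp [← e]⟩)

theorem le_of_pair (h : Lo p (zpowers (MulAut.conj x) ⊔ zpowers (MulAut.conj y)) n) (hx : α x * x⁻¹ = x)
    (hy : α y * y⁻¹ = y) (hc : 3 * (c - 1) < n) : Le p α c := by
  classical
  have key : ∀ g ∈ ({1, x, y} : Finset S), α g * g⁻¹ = g → MulAut.conj g ∈
      ⨆ g ∈ ({1, x, y} : Finset S), (zpowers α).map (MulAut.conj (MulAut.conj g)).toMonoidHom := fun g hg e => by
    have h1 : MulAut.conj g = α * (MulAut.conj g * α * (MulAut.conj g)⁻¹)⁻¹ := by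
      conv_lhs => rw [← e, map_mul, conj_apply, map_inv]
      group
    rw [h1]
    exact mul_mem (mem_iSup_of_mem 1 (mem_iSup_of_mem (by simp) ⟨_, mem_zpowers _, by simp⟩))
      (inv_mem (mem_iSup_of_mem g (mem_iSup_of_mem hg ⟨_, mem_zpowers _, rfl⟩)))
  exact Lo.of_gen {1, x, y} (h.mono (sup_le (zpowers_le.2 (key x (by simp) hx)) (zpowers_le.2 (key y (by simp) hy))))
    ((Nat.mul_le_mul_right _ Finset.card_le_three).trans_lt hc)

end calc_

variable {ι : Type} [Fintype ι] [DecidableEq ι] {F : Type} [Field F] [Finite F] {Q : QuadraticForm F (ι → F)}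

/-- a singular vector and two orthogonal vectors of the same norm -/
structure Pl (Q : QuadraticForm F (ι → F)) (e w w' : ι → F) : Prop where
  e0 : e ≠ 0
  qe : Q e = 0
  ew : polar Q e w = 0
  ew' : polar Q e w' = 0
  ww : polar Q w w' = 0
  qw : Q w ≠ 0
  qq : Q w' = Q w

variable {e w w' : ι → F}

theorem Pl.indep (P : Pl Q e w w') (h2 : (2 : F) ≠ 0) : LinearIndependent F ![e, w, w'] := by
  rw [Fintype.linearIndependent_iff]
  intro g hg
  rw [Fin.sum_univ_three] at hg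
  change g 0 • e + g 1 • w + g 2 • w' = 0 at hg
  have h1 := congrArg (polar Q w) hg
  have h3 := congrArg (polar Q w') hg
  simp only [polar_add_right, polar_smul_right, polar_self', polar_zero_right, polar_comm Q w e, polar_comm Q w' e,
    polar_comm Q w' w, P.ew, P.ew', P.ww, P.qq, smul_eq_mul, mul_zero, zero_add, add_zero, mul_eq_zero, h2, P.qw,
    or_false] at h1 h3
  rw [h1, h3, zero_smul, zero_smul, add_zero, add_zero, smul_eq_zero] at hg
  intro i
  fin_cases i
  exacts [hg.resolve_right P.e0, h1, h3]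

theorem Pl.q_add (P : Pl Q e w w') : Q (w + w') = 2 * Q w := by
  rw [map_add', P.ww, P.qq]
  ring

theorem Pl.rot (P : Pl Q e w w') (h2 : (2 : F) ≠ 0) : Pl Q e (w + w') (w - w') where
  e0 := P.e0
  qe := P.qe
  ew := by rw [polar_add_right, P.ew, P.ew', add_zero]
  ew' := by rw [polar_sub_right, P.ew, P.ew', sub_zero]
  ww := by
    rw [polar_add_left, polar_sub_right, polar_sub_right, polar_self', polar_self', polar_comm Q w' w, P.ww, P.qq]
    ring
  qw := by rw [P.q_add]; exact mul_ne_zero h2 P.qw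
  qq := by
    rw [P.q_add, sub_eq_add_neg, map_add', QuadraticMap.map_neg, polar_neg_right, P.ww, P.qq]
    ring

theorem frame_map {f e' f' : ι → F} {b : Fin 3 → ι → F} (H : Frame Q e f e' f' b) (g : (ι → F) ≃ₗ[F] (ι → F))
    (hg : ∀ v, Q (g v) = Q v) : Frame Q (g e) (g f) (g e') (g f') fun i => g (b i) := by
  have hp : ∀ u v, polar Q (g u) (g v) = polar Q u v := fun u v => by rw [polar, polar, ← map_add, hg, hg, hg]
  exact ⟨⟨(hg _).trans H.hyp.qe, (hg _).trans H.hyp.qf, (hp _ _).trans H.hyp.ef⟩,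
    ⟨(hg _).trans H.hyp'.qe, (hg _).trans H.hyp'.qf, (hp _ _).trans H.hyp'.ef⟩, (hp _ _).trans H.o1,
    (hp _ _).trans H.o2, (hp _ _).trans H.o3, (hp _ _).trans H.o4, fun i => (hp _ _).trans (H.eb i),
    fun i => (hp _ _).trans (H.fb i), fun i => (hp _ _).trans (H.eb' i), fun i => (hp _ _).trans (H.fb' i),
    fun i j hij => (hp _ _).trans (H.orth i j hij), fun i => (hg _).trans_ne (H.nz i)⟩

namespace St

variable (h : St Q)

/-- the Eichler transformation in `Ω` -/
noncomputable def el (u v : ι → F) : Omega F ⇑Q := ⟨E Q u v, E_mem h.h2 h.nd u v⟩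

theorem el_add {u v v' : ι → F} (hu : Q u = 0) (hv : polar Q u v = 0) (hv' : polar Q u v' = 0) :
    h.el u (v + v') = h.el u v * h.el u v' := Subtype.ext (E_add hu hv hv').symm

theorem el_neg {u v : ι → F} (hu : Q u = 0) (hv : polar Q u v = 0) : h.el u (-v) = (h.el u v)⁻¹ :=
  eq_inv_of_mul_eq_one_left (by
    rw [← h.el_add hu (by rw [polar_neg_right, hv, neg_zero]) hv, neg_add_cancel]
    exact Subtype.ext (E_zero u))

theorem cj_el (M : isometryGroup F ⇑Q) (u v : ι → F) : cj Q M (h.el u v) = h.el (act Q M u) (act Q M v) :=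
  Subtype.ext ((coe_cj M _).trans (E_conj M u v))

theorem cj_comm {M : isometryGroup F ⇑Q} {u v : ι → F} {c : F} (hc : c * c = 1) (hu : Q u = 0) (hv : polar Q u v = 0)
    (e1 : act Q M u = c • u) (e2 : act Q M v = -c • v) : cj Q M (h.el u v) * (h.el u v)⁻¹ = h.el u v := by
  have h1 : polar Q u (-v) = 0 := by rw [polar_neg_right, hv, neg_zero]
  have h2 : h.el (c • u) (-c • v) = h.el u (-v) := Subtype.ext (by
    show E Q _ _ = E Q _ _
    rw [E_smul hu (by rw [polar_smul_right, hv, smul_zero]), smul_smul, mul_neg, hc, neg_one_smul])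
  rw [cj_el, e1, e2, h2, ← h.el_neg hu hv, ← h.el_add hu h1 h1]
  congr 1
  have h3 : -v + -v = v - (3 : F) • v := by module
  rw [h3, h.h3, zero_smul, sub_zero]

theorem lo_frame {f e' f' : ι → F} {b : Fin 3 → ι → F} (H : Frame Q e f e' f' b) (hb : ∀ i, Q (b i) = Q (b 0)) :
    Lo 2 (zpowers (MulAut.conj (h.el e (b 1))) ⊔ zpowers (MulAut.conj (h.el e (b 2)))) 40 := by
  have : Fact (Nat.Prime 3) := ⟨Nat.prime_three⟩
  have : CharP F 3 := (CharP.charP_iff_prime_eq_zero Nat.prime_three).2 (by exact_mod_cast h.h3)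
  have d := H.dat h.h2 h.nd 3 fun i j hij => by
    obtain ⟨k, hki, hkj⟩ : ∃ k : Fin 3, k ≠ i ∧ k ≠ j := by
      revert i j
      decide
    refine ⟨Pi.single k 1, Pi.single_eq_of_ne hki.symm _, Pi.single_eq_of_ne hkj.symm _, ?_, ?_⟩
    · rw [Frame.vec_one]
      exact H.nz k
    · rw [Frame.vec_one, hb i, hb k]
      exact ⟨_, rfl⟩
  obtain ⟨σ, h1, h2, h3⟩ := H.exists_rot h.h2 h.nd hb
  have h4 := lo_of_dat h.cen h.zc h.h3 d (fun e => H.z_not_central h.h2 h.nd 0 one_ne_zero (e ▸ one_mem _)) h1 h2 h3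
  have h5 : ∀ i, H.xO h.h2 h.nd (Pi.single i 1) = h.el e (b i) := fun i =>
    Subtype.ext (congrArg (E Q e) (Frame.vec_one b i))
  rwa [h5, h5] at h4

include h in
theorem exists_frame : ∃ (e f e' f' : ι → F) (b : Fin 3 → ι → F), Frame Q e f e' f' b ∧ ∀ i, Q (b i) = Q (b 0) := by
  obtain ⟨m, e, f, e', f', b, H, hm⟩ := exists_frame_aux h.h2 Q h.nd (by rw [h.h7]; norm_num)
  rw [h.h7] at hm
  obtain ⟨c, H', hc⟩ := exists_frame_three h.h2 (H.comp (Fin.castLE_injective (show 3 ≤ m by omega)))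
  refine ⟨e, f, e', f', c, H', fun i => ?_⟩
  obtain ⟨t, ht⟩ := hc i 0
  have h1 : t ≠ 0 := by
    rintro rfl
    exact mul_ne_zero (H'.nz i) (H'.nz 0) (ht.trans (mul_zero _))
  exact mul_right_cancel₀ (H'.nz 0) (ht.trans ((sq_eq_one h.hF h1).trans (sq_eq_one h.hF (H'.nz 0)).symm))

/-- **the bound for a plane** -/
theorem lo_pl (P : Pl Q e w w') :
    Lo 2 (zpowers (MulAut.conj (h.el e w)) ⊔ zpowers (MulAut.conj (h.el e w'))) 40 := by
  obtain ⟨e₀, f, e', f', b, H, hb⟩ := h.exists_frame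
  have P₀ : Pl Q e₀ (b 1) (b 2) := ⟨fun e => zero_ne_one (by rw [← H.hyp.ef, e, polar_zero_left]), H.hyp.qe, H.eb 1,
    H.eb 2, H.orth 1 2 (by decide), H.nz 1, (hb 2).trans (hb 1).symm⟩
  have key : ∀ w w', Pl Q e w w' → Q w = Q (b 1) →
      Lo 2 (zpowers (MulAut.conj (h.el e w)) ⊔ zpowers (MulAut.conj (h.el e w'))) 40 := fun w w' P hw => by
    obtain ⟨g, hg, hx⟩ := ClassicalGeometry.WittQuad.extend_family Q h.nd 3 _ _ (P₀.indep h.h2) (P.indep h.h2)
      (fun i => by
        fin_cases i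
        exacts [P₀.qe.trans P.qe.symm, hw.symm, P₀.qq.trans (hw.symm.trans P.qq.symm)])
      fun i j => by
        fin_cases i <;> fin_cases j <;>
          simp [polar_comm Q w e, polar_comm Q w' e, polar_comm Q w' w, polar_comm Q (b 1) e₀,
            polar_comm Q (b 2) e₀, polar_comm Q (b 2) (b 1), P.qe, P.ew, P.ew', P.ww, P.qq, P₀.qe, P₀.ew, P₀.ew', P₀.ww,
            P₀.qq, hw]
    have h1 := h.lo_frame (frame_map H g hg) fun i => by rw [hg, hg, hb]
    rwa [show g e₀ = e from hx 0, show g (b 1) = w from hx 1, show g (b 2) = w' from hx 2] at h1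
  by_cases hw : Q w = Q (b 1)
  · exact key w w' P hw
  · have h1 : Q (w + w') = Q (b 1) := by
      have h1 := sq_eq_one h.hF P.qw
      have h2 := sq_eq_one h.hF P₀.qw
      have h3 : (Q w - Q (b 1)) * (Q w + Q (b 1)) = 0 := by linear_combination h1 - h2
      rw [P.q_add]
      linear_combination Q w * h.h3 - (mul_eq_zero.1 h3).resolve_left (sub_ne_zero.2 hw)
    refine (key _ _ (P.rot h.h2) h1).mono (sup_le (zpowers_le.2 ?_) (zpowers_le.2 ?_))
    · rw [h.el_add P.qe P.ew P.ew', map_mul]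
      exact mul_mem (mem_sup_left (mem_zpowers _)) (mem_sup_right (mem_zpowers _))
    · rw [sub_eq_add_neg, h.el_add P.qe P.ew (by rw [polar_neg_right, P.ew', neg_zero]), h.el_neg P.qe P.ew', map_mul,
        map_inv]
      exact mul_mem (mem_sup_left (mem_zpowers _)) (inv_mem (mem_sup_right (mem_zpowers _)))

include h

/-- an isometry that inverts the plane -/
theorem le_pl (P : Pl Q e w w') {M : isometryGroup F ⇑Q} {c : F} (hc : c * c = 1) (e1 : act Q M e = c • e)
    (e2 : act Q M w = -c • w) (e3 : act Q M w' = -c • w') : Le 2 (cj Q M) 14 :=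
  le_of_pair (h.lo_pl P) (h.cj_comm hc P.qe P.ew e1 e2) (h.cj_comm hc P.qe P.ew' e1 e3) (by norm_num)

/-- an isometry that inverts one element -/
theorem le_one (P : Pl Q e w w') {v : ι → F} (ve : polar Q v e = 0) (vw : polar Q v w = 0)
    (qv : Q v = -Q w) {M : isometryGroup F ⇑Q} {c : F} (hc : c * c = 1) (e1 : act Q M e = c • e)
    (e2 : act Q M w = -c • w) : Le 2 (cj Q M) 10 := by
  obtain ⟨n1, q1, s1, -⟩ := refl_swap h.h2 P.qw P.qq.symm P.ww
  have n2 : Q v ≠ 0 := by
    rw [qv]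
    exact neg_ne_zero.2 P.qw
  have m := refl_mul_mem h.h2 h.nd n1 n2 ⟨Q w, by rw [q1, qv]; linear_combination (-(Q w * Q w)) * h.h3⟩
  refine Le.comm (h.el e w) (n := 20) ?_ (by norm_num)
  rw [h.cj_comm hc P.qe P.ew e1 e2]
  refine li_of_pair (h.lo_pl P) (g := ⟨_, m⟩) (Subtype.ext ((E_conj _ e w).trans ?_)) (by norm_num)
  rw [act_mul, act_mul, refl_fix n2 ve, refl_fix n2 vw, s1,
    refl_fix n1 (by rw [polar_comm, polar_sub_right, P.ew, P.ew', sub_zero])]
  rfl

end St

end Cfsg.Agent.TwoF.XS.O73x
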