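import Cfsg.Agent.TwoF.XE.Lo
import Cfsg.Agent.TwoF.SpE.Lin
import Cfsg.Agent.Mrg.Omega.TwoF.OrthTie

/-!
# TwoF / XS, `Ω₇(3)` in characteristic 2 (helper76): the bound for a pair of root elements, from the data `Dat`
-/

set_option autoImplicit false

namespace Cfsg.Agent.TwoF.XS.O73x

open Module Subgroup Cfsg.Agent.TwoF.Gen Cfsg.Agent.TwoF.XE Cfsg.Agent.TwoF.SpE Cfsg.Agent.Omega.TwoF.OLift

/-- central factors of order three do not matter -/
theorem tri_modify {Y : Type*} [Group Y] {c σ : Y} {z x y : Fin 3 → Y} (h : SpE.Tri c σ z x y) {k : Fin 3 → Y}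
    (hk : ∀ i g, Commute g (k i)) (h3 : ∀ i, k i ^ 3 = 1) : SpE.Tri c σ z (fun i => x i * k i) y :=
  { h with
    x3 := fun i => by rw [(hk i _).mul_pow, h.x3, h3, one_mul]
    zx := fun i j => Commute.mul_right (h.zx i j) (hk j _)
    xx := fun i j => Commute.mul_left (Commute.mul_right (h.xx i j) (hk j _)) (hk i _).symm
    xy := fun i j hij => Commute.mul_left (h.xy i j hij) (hk i _).symm
    conj := fun i => by
      calc y i * (x i * k i) * (y i)⁻¹ = y i * x i * (k i * (y i)⁻¹) := by group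
        _ = y i * x i * (y i)⁻¹ * k i := by rw [← (hk i _).eq]; group
        _ = x i * k i * z i := by rw [h.conj, mul_assoc, (hk i _).eq, mul_assoc] }

theorem pow_three_of_add {L F : Type*} [Group L] [Field F] (h3 : (3 : F) = 0) {f : F → L}
    (hf : ∀ s t, f (s + t) = f s * f t) (s : F) : f s ^ 3 = 1 := by
  have h0 : f 0 = 1 := by
    have := hf 0 0
    rw [add_zero] at this
    exact left_eq_mul.1 this
  have h1 : s + s + s = 0 := by linear_combination s * h3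
  rw [pow_succ, pow_two, ← hf, ← hf, h1, h0]

/-- the configuration in a cover -/
theorem tri_of_cov {L S F : Type*} [Group L] [Group S] [Field F] (h3 : (3 : F) = 0) {π : L →* S} {z : F → S}
    {x y : (Fin 3 → F) → S} {g : S} {γ : L} {X Y : (Fin 3 → F) → L} (c : Cov π z x y g γ X Y)
    (hk : ∀ k ∈ π.ker, k ^ 3 = 1) {σ : S} (hσ : σ * g = g * σ) (hx : ∀ p, σ * x p * σ⁻¹ = x (rot p))
    (hy : ∀ p, σ * y p * σ⁻¹ = y (rot p)) :
    ∃ χ T, SpE.Tri χ T (fun i => Cov.zi X Y i 1) (fun i => X (Pi.single i 1)) fun i => Y (Pi.single i 1) := by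
  obtain ⟨T, rfl⟩ := c.odd.surj σ
  have hT := c.zi_rot hσ hx hy
  have hχ : (Cov.zi X Y 0 1)⁻¹ * Cov.zi X Y 1 1 ∈ π.ker := by
    rw [MonoidHom.mem_ker, map_mul, map_inv, c.map_zi, c.map_zi, inv_mul_cancel]
  obtain ⟨χ, e⟩ : ∃ χ, χ = (Cov.zi X Y 0 1)⁻¹ * Cov.zi X Y 1 1 := ⟨_, rfl⟩
  rw [← e] at hχ
  have e1 : Cov.zi X Y 1 1 = Cov.zi X Y 0 1 * χ := by rw [e, mul_inv_cancel_left]
  refine ⟨χ, T, hk χ hχ, fun i => pow_three_of_add h3 (c.zi_add i) 1,
    fun i => pow_three_of_add h3 (f := fun s => X (Pi.single i s)) (fun s t => by rw [Pi.single_add, c.X_add]) 1,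
    fun l => (ker_comm c.odd hχ l).symm, fun i j => c.zi_comm i j 1 1, fun i j => c.comm_X (c.map_zi i 1) _,
    fun i j => c.comm_Y (c.map_zi i 1) _, fun i j => c.X_comm _ _, fun i j hij => ?_, fun i => ?_, e1, ?_, hT 0 1⟩
  · have h1 := c.bet_conj' (Pi.single i 1) (Pi.single j 1)
    rw [c.bet_off hij, mul_one] at h1
    exact (mul_inv_eq_iff_eq_mul.1 h1).symm
  · exact c.bet_conj' _ _
  · have h1 : T * Cov.zi X Y 1 1 * T⁻¹ = Cov.zi X Y 2 1 := hT 1 1
    have h0 : T * Cov.zi X Y 0 1 * T⁻¹ = Cov.zi X Y 1 1 := hT 0 1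
    show Cov.zi X Y 2 1 = Cov.zi X Y 0 1 * χ ^ 2
    rw [← h1, pow_two, ← mul_assoc, ← e1]
    conv_lhs => rw [e1]
    conv_rhs => rw [← h0]
    rw [← mul_assoc, mul_assoc _ χ, ← ker_comm c.odd hχ T⁻¹, ← mul_assoc]

/-- **the bound for a pair** -/
theorem lo_of_dat {S : Type} [Group S] (hS : center S = ⊥) (hZ : Zc 2 S 6) {F : Type*} [Field F] (h3 : (3 : F) = 0)
    {z : F → S} {x y : (Fin 3 → F) → S} {g σ : S} (d : Dat z x y g) (hz : z 1 ≠ 1) (hσ : σ * g = g * σ)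
    (hx : ∀ p, σ * x p * σ⁻¹ = x (rot p)) (hy : ∀ p, σ * y p * σ⁻¹ = y (rot p)) :
    Lo 2 (zpowers (MulAut.conj (x (Pi.single 1 1))) ⊔ zpowers (MulAut.conj (x (Pi.single 2 1)))) 40 := by
  intro Y _ _ V _ _ _ K ρ π φ H A hA
  have hc : ¬ 2 ∣ Nat.card π.ker := by
    rw [H.ker_π]
    exact H.cop
  have hk : ∀ k ∈ π.ker, k ^ 3 = 1 := fun k hk => by
    have h1 := hZ K π (H.toFrm.stem H.toStp.perfect) hc
    have h2 : Nat.card π.ker ∣ 3 :=
      (Nat.Coprime.symm ((Nat.Prime.coprime_iff_not_dvd Nat.prime_two).2 hc)).dvd_of_dvd_mul_left h1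
    exact orderOf_dvd_iff_pow_eq_one.1 ((Subgroup.orderOf_dvd_natCard _ hk).trans h2)
  obtain ⟨γ, X, Y', c⟩ := d.exists_cov (π := π)
    ⟨H.toStp.perfect.commutator_eq_top, H.surj, H.ker_π.le, Nat.odd_iff.2 (Nat.two_dvd_ne_zero.1 hc)⟩
  obtain ⟨χ, T, t⟩ := tri_of_cov h3 c hk hσ hx hy
  have key : ∀ p, MulAut.conj (x p) ∈ A.map φ → ∃ k ∈ π.ker, ((X p * k : K) : Y) ∈ A := by
    rintro p ⟨u, hu, e⟩
    have h1 : u ∈ K := H.toFrm.mem_inn_iff.1 ⟨_, e.symm⟩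
    have h2 : π ⟨u, h1⟩ = x p := by
      have h2 := (H.toFrm.φ_coe ⟨u, h1⟩).symm.trans e
      rwa [← mul_inv_eq_one, ← map_inv, ← map_mul, conj_eq_one_iff hS, mul_inv_eq_one] at h2
    refine ⟨(X p)⁻¹ * ⟨u, h1⟩, ?_, by rwa [mul_inv_cancel_left]⟩
    rw [MonoidHom.mem_ker, map_mul, map_inv, c.liftX.map, h2, inv_mul_cancel]
  obtain ⟨k1, m1, a1⟩ := key _ (hA (mem_sup_left (mem_zpowers _)))
  obtain ⟨k2, m2, a2⟩ := key _ (hA (mem_sup_right (mem_zpowers _)))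
  have hm : ∀ i, (![1, k1, k2] : Fin 3 → K) i ∈ π.ker := fun i => by
    fin_cases i
    exacts [one_mem _, m1, m2]
  have t' := tri_modify t (fun i g => ker_comm c.odd (hm i) g) fun i => hk _ (hm i)
  have h1 := (t'.bound (ρ := ρ.comp K.subtype) (H.faithful.comp Subtype.val_injective) fun e => hz (by
    rw [← c.map_zi 0 1, show Cov.zi X Y' 0 1 = 1 from e, map_one])).2.1
  have h2 := le_cod_add (ρ := ρ.comp K.subtype) (B := A.subgroupOf K)
    (l := [X (Pi.single 1 1) * k1, X (Pi.single 2 1) * k2]) fun g hg => by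
      rcases List.mem_cons.1 hg with rfl | hg
      · exact a1
      · rw [List.mem_singleton.1 hg]
        exact a2
  have h4 : cod (ρ.comp K.subtype : Representation (ZMod 2) K V) (A.subgroupOf K) ≤ cod ρ A := by
    rw [cod_comp]
    exact cod_mono (map_le_iff_le_comap.2 le_rfl)
  change 40 + dl (ρ.comp K.subtype : Representation (ZMod 2) K V)
    [X (Pi.single 1 1) * k1, X (Pi.single 2 1) * k2] ≤ _ at h1
  omega

end Cfsg.Agent.TwoF.XS.O73x
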